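import Mathlib.GroupTheory.Index
import Mathlib.GroupTheory.QuotientGroup.Basic
import Mathlib.GroupTheory.Perm.Basic
import Mathlib.Tactic.Group

/-!
Two copies of a group in a finite group are conjugate in the symmetric group of the regular action.
-/

set_option autoImplicit false

namespace CfsgLib.VirtuallyFree

variable {A G : Type*} [Group A] [Group G]

theorem bijective_transversal (j : A →* G) (hj : Function.Injective j) :
    Function.Bijective fun aq : A × (G ⧸ j.range) => j aq.1 * aq.2.out⁻¹ := by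
  constructor
  · rintro ⟨a, q⟩ ⟨b, r⟩ h
    have h1 : j a * q.out⁻¹ = j b * r.out⁻¹ := h
    have hq : q = r := by
      rw [← q.out_eq', ← r.out_eq']
      refine QuotientGroup.eq.2 ⟨a⁻¹ * b, ?_⟩
      rw [map_mul, map_inv]
      calc (j a)⁻¹ * j b = (j a)⁻¹ * (j b * r.out⁻¹) * r.out := by group
        _ = q.out⁻¹ * r.out := by rw [← h1]; group
    subst hq
    exact Prod.ext (hj (mul_right_cancel h1)) rfl
  · intro s
    obtain ⟨k, hk⟩ := QuotientGroup.mk_out_eq_mul j.range s⁻¹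
    obtain ⟨a, ha⟩ := k.2
    refine ⟨(a, (s⁻¹ : G)), ?_⟩
    show j a * ((s⁻¹ : G) : G ⧸ j.range).out⁻¹ = s
    rw [hk, ha, mul_inv_rev, inv_inv, mul_inv_cancel_left]

theorem exists_perm [Finite G] {j₁ j₂ : A →* G} (h₁ : Function.Injective j₁)
    (h₂ : Function.Injective j₂) :
    ∃ σ : Equiv.Perm G, ∀ (a : A) (s : G), σ (j₁ a * s) = j₂ a * σ s := by
  have : Finite A := Finite.of_injective j₁ h₁
  let e₁ := Equiv.ofBijective _ (bijective_transversal j₁ h₁)
  let e₂ := Equiv.ofBijective _ (bijective_transversal j₂ h₂)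
  have hcard : Nat.card (G ⧸ j₁.range) = Nat.card (G ⧸ j₂.range) := by
    have c₁ := (Nat.card_congr e₁).trans (Nat.card_congr e₂).symm
    rw [Nat.card_prod, Nat.card_prod] at c₁
    exact Nat.eq_of_mul_eq_mul_left Nat.card_pos c₁
  obtain ⟨e⟩ : Nonempty (G ⧸ j₁.range ≃ G ⧸ j₂.range) :=
    ⟨(Finite.equivFin _).trans ((finCongr hcard).trans (Finite.equivFin _).symm)⟩
  refine ⟨e₁.symm.trans (((Equiv.refl A).prodCongr e).trans e₂), fun a s => ?_⟩
  obtain ⟨⟨b, q⟩, rfl⟩ := e₁.surjective s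
  have h : j₁ a * e₁ (b, q) = e₁ (a * b, q) := by
    show j₁ a * (j₁ b * q.out⁻¹) = j₁ (a * b) * q.out⁻¹
    rw [map_mul, mul_assoc]
  rw [h]
  simp only [Equiv.trans_apply, Equiv.symm_apply_apply, Equiv.prodCongr_apply, Prod.map_apply,
    Equiv.refl_apply]
  show j₂ (a * b) * (e q).out⁻¹ = j₂ a * (j₂ b * (e q).out⁻¹)
  rw [map_mul, mul_assoc]

end CfsgLib.VirtuallyFree
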