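import Mathlib.GroupTheory.FreeGroup.Reduce

/-!
Reduced words under renaming of the letters, and paths of a graph spelled by words.
-/

set_option autoImplicit false

namespace CfsgLib.VirtuallyFree

open FreeGroup

variable {α β V : Type*}

theorem isReduced_map {f : α → β} (hf : Function.Injective f) {L : List (α × Bool)}
    (h : IsReduced L) : IsReduced (L.map fun x => (f x.1, x.2)) :=
  (List.isChain_map _).2 (List.IsChain.imp (fun _ _ hab e => hab (hf e)) h)

theorem isReduced_toWord [DecidableEq α] (x : FreeGroup α) : IsReduced x.toWord :=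
  IsReduced.of_reduce_eq (reduce_toWord x)

theorem toWord_mk_of_isReduced [DecidableEq α] {L : List (α × Bool)} (h : IsReduced L) :
    (FreeGroup.mk L).toWord = L := by
  rw [toWord_mk, h.reduce_eq]

theorem toWord_map [DecidableEq α] [DecidableEq β] {f : α → β} (hf : Function.Injective f)
    (x : FreeGroup α) :
    (FreeGroup.map f x).toWord = x.toWord.map fun y => (f y.1, y.2) := by
  conv_lhs => rw [← mk_toWord (x := x)]
  rw [map.mk, toWord_mk_of_isReduced (isReduced_map hf (isReduced_toWord x))]

/-- If `A⁻¹ B` is not longer than `A` then the reduced words `A` and `B ≠ 1` begin alike. -/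
theorem head_eq_of_length [DecidableEq α] {a b : α × Bool} {A B : List (α × Bool)}
    (hA : IsReduced (a :: A)) (hB : IsReduced (b :: B))
    (h : (reduce (invRev (a :: A) ++ (b :: B))).length ≤ (a :: A).length) : a = b := by
  by_contra hne
  have hinv : IsReduced (invRev (a :: A)) := IsReduced.of_reduce_eq (by
    rw [reduce_invRev, hA.reduce_eq])
  have hred : IsReduced (invRev (a :: A) ++ (b :: B)) := by
    refine List.isChain_append.2 ⟨hinv, hB, ?_⟩
    intro x hx y hy hxy
    have hx' : x = (a.1, !a.2) := by
      rw [invRev_cons] at hx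
      simpa [invRev, eq_comm] using hx
    have hy' : y = b := by simpa [eq_comm] using hy
    subst hx' hy'
    cases ha : a.2 <;> cases hb : y.2 <;> simp_all [Prod.ext_iff]
  rw [hred.reduce_eq] at h
  simp [invRev_length] at h
  omega

/-- The word `L` spells a path from `u` to `v`, the letters being the edges of `E`. -/
def Path (E : α → V → V → Prop) : List (α × Bool) → V → V → Prop
  | [], u, v => u = v
  | x :: L, u, v => ∃ m, (if x.2 then E x.1 u m else E x.1 m u) ∧ Path E L m v

variable {E : α → V → V → Prop}

theorem path_append {L₁ L₂ : List (α × Bool)} {u v : V} :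
    Path E (L₁ ++ L₂) u v ↔ ∃ m, Path E L₁ u m ∧ Path E L₂ m v := by
  induction L₁ generalizing u with
  | nil => simp [Path]
  | cons x L ih =>
    simp only [List.cons_append, Path, ih]
    exact ⟨fun ⟨m, h, m', h1, h2⟩ => ⟨m', ⟨m, h, h1⟩, h2⟩,
      fun ⟨m', ⟨m, h, h1⟩, h2⟩ => ⟨m, h, m', h1, h2⟩⟩

theorem Path.invRev {L : List (α × Bool)} {u v : V} (h : Path E L u v) :
    Path E (FreeGroup.invRev L) v u := by
  induction L generalizing u with
  | nil => exact Eq.symm h
  | cons x L ih =>
    obtain ⟨m, hx, hL⟩ := h
    rw [invRev_cons, path_append]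
    refine ⟨m, ih hL, ?_⟩
    obtain ⟨x₁, x₂⟩ := x
    cases x₂ <;> exact ⟨u, by simpa using hx, rfl⟩

theorem Path.red [DecidableEq α]
    (hE : ∀ x u v u' v', E x u v → E x u' v' → u = u' ∧ v = v')
    {L : List (α × Bool)} {u v : V} (h : Path E L u v) : Path E (FreeGroup.reduce L) u v := by
  have hr : Red L (FreeGroup.reduce L) := reduce.red
  generalize FreeGroup.reduce L = L' at hr
  induction hr with
  | refl => exact h
  | tail _ hs ih =>
    cases hs with
    | @not L₁ L₂ x b =>
      obtain ⟨m, h1, m₁, h2, m₂, h3, h4⟩ := path_append.1 ih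
      refine path_append.2 ⟨m, h1, ?_⟩
      cases b <;> simp at h2 h3
      · rw [(hE _ _ _ _ _ h2 h3).2]
        exact h4
      · rw [(hE _ _ _ _ _ h2 h3).1]
        exact h4

theorem Path.map {f : α → α} {g : V → V} (hfg : ∀ x u v, E x u v → E (f x) (g u) (g v))
    {L : List (α × Bool)} {u v : V} (h : Path E L u v) :
    Path E (L.map fun y => (f y.1, y.2)) (g u) (g v) := by
  induction L generalizing u with
  | nil => exact congrArg g h
  | cons x L ih =>
    obtain ⟨m, hx, hL⟩ := h
    refine ⟨g m, ?_, ih hL⟩
    obtain ⟨x₁, x₂⟩ := x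
    cases x₂ <;> simpa using hfg _ _ _ (by simpa using hx)

end CfsgLib.VirtuallyFree
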