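import Cfsg.Agent.Fus.Basic
import Cfsg.Agent.Fus.VirtuallyFree.Perm
import Cfsg.Agent.Fus.VirtuallyFree.Words
import Mathlib.GroupTheory.SemidirectProduct
import Mathlib.GroupTheory.FreeGroup.NielsenSchreier

/-!
A virtually free group realizing a fusion system: inside the semidirect product of a free group on
edges with the symmetric group of `S`, generated by `S` and one element for each map of the system.
-/

set_option autoImplicit false

universe u

namespace CfsgLib.VirtuallyFree

open Cfsg Cfsg.FusionSystem CfsgLib.Fus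

variable {Ω : Type u} [Group Ω] {S : Subgroup Ω} [Finite S] (F : Cfsg.FusionSystem S)

/-- The maps of the system, as indices of the generators. -/
abbrev Gen : Type u := Σ P : Subgroup Ω, {φ : P →* Ω // φ ∈ F.Hom P}

variable {F}

/-- Left translations. -/
def lam (S : Subgroup Ω) : S →* Equiv.Perm S := MulAction.toPermHom S S

omit [Finite S] in
theorem lam_injective : Function.Injective (lam S) := fun a b h => by
  have h1 := congrArg (fun e : Equiv.Perm S => e 1) h
  have h2 : a * 1 = b * 1 := h1
  simpa using h2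

/-- The map of an index with values in `S`. -/
def Gen.img (i : Gen F) : i.1 →* S := i.2.1.codRestrict S (hom_mem F i.2.2)

theorem exists_sigma (i : Gen F) : ∃ σ : Equiv.Perm S, ∀ x : i.1,
    lam S (i.img x) * σ = σ * lam S ⟨x, hom_le F i.2.2 x.2⟩ := by
  obtain ⟨σ, hσ⟩ := exists_perm (G := S) (j₁ := Subgroup.inclusion (hom_le F i.2.2)) (j₂ := i.img)
    (Subgroup.inclusion_injective _)
    (fun a b h => F.injective_of_mem i.2.2 (congrArg Subtype.val h))
  exact ⟨σ, fun x => Equiv.ext fun s => (hσ x s).symm⟩

/-- A permutation conjugating the translations as the map does. -/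
noncomputable def Gen.perm (i : Gen F) : Equiv.Perm S := (exists_sigma i).choose

theorem Gen.perm_spec (i : Gen F) (x : i.1) :
    lam S (i.img x) * i.perm = i.perm * lam S ⟨x, hom_le F i.2.2 x.2⟩ :=
  (exists_sigma i).choose_spec x

/-- The stabilizer of the edge of an index. -/
def Gen.stab (i : Gen F) : Subgroup (Equiv.Perm S) := ((lam S).comp i.img).range

variable (F)

/-- The edges. -/
abbrev Edge : Type u := Σ i : Gen F, Equiv.Perm S ⧸ i.stab

/-- The vertices. -/
abbrev Vert (S : Subgroup Ω) : Type u := Equiv.Perm S ⧸ (lam S).range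

variable {F}

/-- The action on edges. -/
def edgeMove (h : Equiv.Perm S) (x : Edge F) : Edge F := ⟨x.1, h • x.2⟩

omit [Finite S] in
theorem edgeMove_mul (g h : Equiv.Perm S) (x : Edge F) :
    edgeMove (g * h) x = edgeMove g (edgeMove h x) :=
  Sigma.ext rfl (heq_of_eq (mul_smul g h x.2))

omit [Finite S] in
theorem edgeMove_one (x : Edge F) : edgeMove 1 x = x := by
  simp [edgeMove]

omit [Finite S] in
theorem edgeMove_injective (h : Equiv.Perm S) : Function.Injective (edgeMove (F := F) h) :=
  fun x y hxy => by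
    have h1 := congrArg (edgeMove h⁻¹) hxy
    rwa [← edgeMove_mul, ← edgeMove_mul, inv_mul_cancel, edgeMove_one, edgeMove_one] at h1

variable (F)

/-- The action on the free group of edges. -/
def edgeAut : Equiv.Perm S →* MulAut (FreeGroup (Edge F)) where
  toFun h := FreeGroup.freeGroupCongr
    { toFun := edgeMove h
      invFun := edgeMove h⁻¹
      left_inv := fun x => by rw [← edgeMove_mul, inv_mul_cancel, edgeMove_one]
      right_inv := fun x => by rw [← edgeMove_mul, mul_inv_cancel, edgeMove_one] }
  map_one' := MulEquiv.ext fun x => by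
    show FreeGroup.map (edgeMove 1) x = x
    rw [show (edgeMove (F := F) 1) = id from funext edgeMove_one]
    exact FreeGroup.map.id x
  map_mul' g h := MulEquiv.ext fun x => by
    show FreeGroup.map (edgeMove (g * h)) x =
      FreeGroup.map (edgeMove g) (FreeGroup.map (edgeMove h) x)
    rw [FreeGroup.map.comp]
    exact congrArg (fun f => FreeGroup.map f x) (funext (edgeMove_mul g h))

omit [Finite S] in
theorem edgeAut_apply (h : Equiv.Perm S) (x : FreeGroup (Edge F)) :
    edgeAut F h x = FreeGroup.map (edgeMove h) x := rfl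

/-- The ambient semidirect product. -/
abbrev Amb : Type u := FreeGroup (Edge F) ⋊[edgeAut F] Equiv.Perm S

variable {F}

/-- The base edge of an index. -/
def Gen.edge (i : Gen F) : Edge F := ⟨i, ((1 : Equiv.Perm S) : Equiv.Perm S ⧸ i.stab)⟩

/-- The generator of an index. -/
noncomputable def Gen.elt (i : Gen F) : Amb F := ⟨FreeGroup.of i.edge, i.perm⟩

variable (F)

/-- The realizing group. -/
noncomputable def realGroup : Subgroup (Amb F) :=
  Subgroup.closure (Set.range (SemidirectProduct.inr.comp (lam S) : S →* Amb F) ∪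
    Set.range (Gen.elt (F := F)))

/-- The embedding of `S`. -/
noncomputable def realEmb : S →* realGroup F :=
  (SemidirectProduct.inr.comp (lam S) : S →* Amb F).codRestrict _ fun s =>
    Subgroup.subset_closure (Or.inl ⟨s, rfl⟩)

variable {F}

/-- Incidence. -/
def Inc (x : Edge F) (u v : Vert S) : Prop :=
  ∃ d : Equiv.Perm S, x.2 = (d : Equiv.Perm S ⧸ x.1.stab) ∧ u = (d : Vert S) ∧
    v = ((d * x.1.perm : Equiv.Perm S) : Vert S)

theorem inc_unique (x : Edge F) (u v u' v' : Vert S) (h : Inc x u v) (h' : Inc x u' v') :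
    u = u' ∧ v = v' := by
  obtain ⟨d, hd, rfl, rfl⟩ := h
  obtain ⟨d', hd', rfl, rfl⟩ := h'
  obtain ⟨q, hq⟩ := QuotientGroup.eq.1 (hd.symm.trans hd')
  refine ⟨QuotientGroup.eq.2 ⟨x.1.img q, hq⟩,
    QuotientGroup.eq.2 ⟨⟨q, hom_le F x.1.2.2 q.2⟩, ?_⟩⟩
  have hq' : d' = d * lam S (x.1.img q) := by
    rw [show lam S (x.1.img q) = d⁻¹ * d' from hq, mul_inv_cancel_left]
  rw [hq', mul_inv_rev, mul_assoc, mul_assoc d, inv_mul_cancel_left, x.1.perm_spec q,
    inv_mul_cancel_left]

theorem inc_move (h : Equiv.Perm S) (x : Edge F) (u v : Vert S) (hi : Inc x u v) :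
    Inc (edgeMove h x) (h • u) (h • v) := by
  obtain ⟨d, hd, rfl, rfl⟩ := hi
  refine ⟨h * d, ?_, rfl, congrArg QuotientGroup.mk (mul_assoc h d x.1.perm).symm⟩
  show h • x.2 = _
  rw [hd]
  rfl

/-- The base vertex. -/
abbrev base (S : Subgroup Ω) : Vert S := ((1 : Equiv.Perm S) : Vert S)

open scoped Classical in
/-- Every element of the group carries a path from the base vertex to its image. -/
theorem path_of_mem {g : Amb F} (hg : g ∈ realGroup F) :
    Path Inc g.left.toWord (base S) (g.right • base S) := by
  refine Subgroup.closure_induction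
    (p := fun g _ => Path Inc g.left.toWord (base S) (g.right • base S)) ?_ ?_ ?_ ?_ hg
  · rintro _ (⟨s, rfl⟩ | ⟨i, rfl⟩)
    · show Path Inc (1 : FreeGroup (Edge F)).toWord (base S) (lam S s • base S)
      rw [FreeGroup.toWord_one]
      exact QuotientGroup.eq.2 ⟨s, by simp⟩
    · show Path Inc (FreeGroup.of i.edge).toWord (base S) (i.perm • base S)
      rw [FreeGroup.toWord_of]
      refine ⟨i.perm • base S, ?_, rfl⟩
      simp only [if_true]
      exact ⟨1, rfl, rfl, by simp [base, MulAction.Quotient.smul_mk, Gen.edge]⟩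
  · show Path Inc (1 : FreeGroup (Edge F)).toWord (base S) ((1 : Equiv.Perm S) • base S)
    rw [FreeGroup.toWord_one, one_smul]
    rfl
  · intro a b _ _ ha hb
    rw [SemidirectProduct.mul_left, SemidirectProduct.mul_right, FreeGroup.toWord_mul, mul_smul,
      edgeAut_apply, toWord_map (edgeMove_injective _)]
    exact (path_append.2 ⟨_, ha, hb.map (inc_move a.right)⟩).red inc_unique
  · intro a _ ha
    rw [SemidirectProduct.inv_left, SemidirectProduct.inv_right, edgeAut_apply,
      toWord_map (edgeMove_injective _), FreeGroup.toWord_inv]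
    have h1 := ha.invRev.map (inc_move a.right⁻¹)
    rwa [inv_smul_smul] at h1

theorem right_mem_of_left_one {g : Amb F} (hg : g ∈ realGroup F) (h : g.left = 1) :
    g ∈ (SemidirectProduct.inr.comp (lam S) : S →* Amb F).range := by
  classical
  have h1 := path_of_mem hg
  rw [h, FreeGroup.toWord_one] at h1
  have h2 : ((1 : Equiv.Perm S) : Vert S) = ((g.right * 1 : Equiv.Perm S) : Vert S) := h1
  rw [QuotientGroup.eq, inv_one, one_mul, mul_one] at h2
  obtain ⟨s, hs⟩ := h2
  exact ⟨s, SemidirectProduct.ext h.symm hs⟩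

end CfsgLib.VirtuallyFree
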