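import Cfsg.Agent.Fus.VirtuallyFree.Group

/-!
The group of `Group.lean` induces exactly the system, its finite subgroups are conjugate into `S`,
and it is virtually free.
-/

set_option autoImplicit false

universe u

namespace CfsgLib.VirtuallyFree

open Cfsg Cfsg.FusionSystem CfsgLib.Fus

variable {Ω : Type u} [Group Ω] {S : Subgroup Ω} [Finite S] {F : Cfsg.FusionSystem S}

/-- Translation by the images of a map of the system, conjugated by `a`, gives `c`. -/
def Good (F : Cfsg.FusionSystem S) {P : Subgroup Ω} (c : P → Equiv.Perm S) (a : Equiv.Perm S) :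
    Prop :=
  ∃ ψ : P →* Ω, ∃ hψ : ψ ∈ F.Hom P,
    ∀ p : P, a * lam S ⟨ψ p, hom_mem F hψ p⟩ * a⁻¹ = c p

omit [Finite S] in
theorem Good.congr {P : Subgroup Ω} {c : P → Equiv.Perm S} {a b : Equiv.Perm S}
    (h : Good F c a) (hab : (a : Vert S) = (b : Vert S)) : Good F c b := by
  obtain ⟨u, hu⟩ := QuotientGroup.eq.1 hab
  obtain ⟨ψ, hψ, hc⟩ := h
  have hb : b = a * lam S u := by rw [hu, mul_inv_cancel_left]
  refine ⟨_, F.comp_mem hψ (F.conj_mem (range_le F hψ) (S.inv_mem u.2)) fun p => ⟨p, rfl⟩,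
    fun p => ?_⟩
  rw [← hc p, hb, mul_inv_rev]
  have key : ∀ v w : S, u * v * u⁻¹ = w →
      a * lam S u * lam S v * ((lam S u)⁻¹ * a⁻¹) = a * lam S w * a⁻¹ := fun v w h => by
    rw [← h, map_mul, map_mul, map_inv]
    group
  refine key _ _ (Subtype.ext ?_)
  show (u : Ω) * ((u : Ω)⁻¹ * ψ p * (u : Ω)⁻¹⁻¹) * (u : Ω)⁻¹ = ψ p
  group

omit [Finite S] in
theorem stab_spec {i : Gen F} {d h : Equiv.Perm S}
    (hfix : h • ((d : Equiv.Perm S) : Equiv.Perm S ⧸ i.stab) = (d : Equiv.Perm S ⧸ i.stab)) :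
    ∃ q : i.1, d⁻¹ * h * d = lam S (i.img q) := by
  obtain ⟨q, hq⟩ := QuotientGroup.eq.1 hfix.symm
  refine ⟨q, ?_⟩
  rw [show lam S (i.img q) = _ from hq, mul_assoc]
  rfl

theorem good_of_edge {P : Subgroup Ω} {c : P → Equiv.Perm S} {x : Edge F} {u v : Vert S}
    (hx : Inc x u v) (hfix : ∀ p, edgeMove (c p) x = x) :
    (∀ b : Equiv.Perm S, (b : Vert S) = v → Good F c b →
      ∀ a : Equiv.Perm S, (a : Vert S) = u → Good F c a) ∧
    (∀ a : Equiv.Perm S, (a : Vert S) = u → Good F c a →
      ∀ b : Equiv.Perm S, (b : Vert S) = v → Good F c b) := by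
  obtain ⟨i, e⟩ := x
  obtain ⟨d, hd, rfl, rfl⟩ := hx
  change e = (d : Equiv.Perm S ⧸ i.stab) at hd
  subst hd
  have hc : ∀ p, ∃ q : i.1, d⁻¹ * c p * d = lam S (i.img q) := fun p =>
    stab_spec (eq_of_heq (Sigma.mk.inj_iff.1 (hfix p)).2)
  refine ⟨fun b hb hg a ha => ?_, fun a ha hg b hb => ?_⟩
  · obtain ⟨ψ, hψ, hψc⟩ := hg.congr hb
    have hval : ∀ p : P, ∃ q : i.1, (q : Ω) = ψ p ∧ d * lam S (i.img q) * d⁻¹ = c p := by
      intro p
      obtain ⟨q, hq⟩ := hc p
      have h1 : d * lam S (i.img q) * d⁻¹ = c p := by rw [← hq]; group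
      refine ⟨q, ?_, h1⟩
      have h2 : d * i.perm * lam S ⟨ψ p, hom_mem F hψ p⟩ * (d * i.perm)⁻¹ =
          d * i.perm * lam S ⟨q, hom_le F i.2.2 q.2⟩ * (d * i.perm)⁻¹ := by
        rw [hψc p, ← h1, mul_assoc d i.perm (lam S ⟨q, _⟩), ← i.perm_spec q]
        group
      exact (congrArg Subtype.val (lam_injective (mul_left_cancel (mul_right_cancel h2)))).symm
    have hmem : ∀ p : P, ψ p ∈ i.1 := fun p => by
      obtain ⟨q, hq, -⟩ := hval p
      exact hq ▸ q.2
    refine Good.congr ⟨_, F.comp_mem hψ i.2.2 hmem, fun p => ?_⟩ ha.symm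
    obtain ⟨q, hq, hqc⟩ := hval p
    rw [← hqc]
    congr 3
    exact Subtype.ext (congrArg i.2.1 (Subtype.ext hq.symm))
  · obtain ⟨ψ, hψ, hψc⟩ := hg.congr ha
    have hval : ∀ p : P, ∃ q : i.1, i.2.1 q = ψ p ∧
        d * i.perm * lam S ⟨q, hom_le F i.2.2 q.2⟩ * (d * i.perm)⁻¹ = c p := by
      intro p
      obtain ⟨q, hq⟩ := hc p
      have h1 : d * lam S (i.img q) * d⁻¹ = c p := by rw [← hq]; group
      refine ⟨q, ?_, ?_⟩
      · have h2 : d * lam S ⟨ψ p, hom_mem F hψ p⟩ * d⁻¹ = d * lam S (i.img q) * d⁻¹ :=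
          (hψc p).trans h1.symm
        exact (congrArg Subtype.val (lam_injective (mul_left_cancel (mul_right_cancel h2)))).symm
      · rw [← h1, mul_assoc d i.perm (lam S ⟨q, _⟩), ← i.perm_spec q]
        group
    obtain ⟨ξ, hξ, -, hl, -⟩ := CfsgLib.Fus.exists_inv F i.2.2 rfl
    have hmem : ∀ p : P, ψ p ∈ i.2.1.range := fun p => by
      obtain ⟨q, hq, -⟩ := hval p
      exact ⟨q, hq⟩
    refine Good.congr ⟨_, F.comp_mem hψ hξ hmem, fun p => ?_⟩ hb.symm
    obtain ⟨q, hq, hqc⟩ := hval p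
    rw [← hqc]
    congr 3
    refine Subtype.ext ?_
    show ξ ⟨ψ p, _⟩ = (q : Ω)
    rw [← hl q ⟨q, rfl⟩]
    exact congrArg ξ (Subtype.ext hq.symm)

theorem good_of_path {P : Subgroup Ω} {c : P → Equiv.Perm S} :
    ∀ (L : List (Edge F × Bool)) (u v : Vert S), Path Inc L u v →
      (∀ p, ∀ y ∈ L, edgeMove (c p) y.1 = y.1) →
      ∀ b : Equiv.Perm S, (b : Vert S) = v → Good F c b →
        ∀ a : Equiv.Perm S, (a : Vert S) = u → Good F c a := by
  intro L
  induction L with
  | nil =>
    intro u v huv _ b hb hg a ha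
    exact hg.congr (hb.trans ((Eq.symm huv).trans ha.symm))
  | cons y L ih =>
    intro u v ⟨m, hy, hL⟩ hfix b hb hg a ha
    obtain ⟨m₀, rfl⟩ := QuotientGroup.mk_surjective m
    have hm : Good F c m₀ :=
      ih _ v hL (fun p z hz => hfix p z (List.mem_cons_of_mem _ hz)) b hb hg m₀ rfl
    have hfy := fun p => hfix p y List.mem_cons_self
    obtain ⟨y₁, y₂⟩ := y
    cases y₂ <;> simp at hy
    · exact (good_of_edge hy hfy).2 m₀ rfl hm a ha
    · exact (good_of_edge hy hfy).1 m₀ rfl hm a ha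

theorem realEmb_apply (s : S) :
    ((realEmb F s : realGroup F) : Amb F) = ⟨1, lam S s⟩ := rfl

/-- The group realizes the system. -/
theorem isRealizedBy : F.IsRealizedBy (realEmb F) := by
  classical
  refine ⟨fun a b h => lam_injective (congrArg SemidirectProduct.right (congrArg Subtype.val h)),
    fun P hP φ hφ => ⟨fun hmem => ?_, ?_⟩⟩
  · set i : Gen F := ⟨P, φ, hmem⟩
    refine ⟨⟨i.elt, Subgroup.subset_closure (Or.inr ⟨i, rfl⟩)⟩, fun x => ?_⟩
    refine eq_mul_inv_of_mul_eq (Subtype.ext ?_)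
    simp only [Subgroup.coe_mul, realEmb_apply]
    refine SemidirectProduct.ext ?_ (i.perm_spec x)
    show 1 * edgeAut F (lam S _) (FreeGroup.of i.edge) = FreeGroup.of i.edge * edgeAut F i.perm 1
    rw [one_mul, map_one, mul_one, edgeAut_apply, FreeGroup.map.of]
    refine congrArg FreeGroup.of ?_
    refine Sigma.ext rfl (heq_of_eq ?_)
    refine QuotientGroup.eq.2 ?_
    simp only [smul_eq_mul, mul_one]
    exact inv_mem ⟨x, rfl⟩
  · rintro ⟨⟨g, hg⟩, hgx⟩
    let c : P → Equiv.Perm S := fun p => lam S ⟨φ p, hφ p⟩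
    have hcomm : ∀ p : P, g * (⟨1, lam S ⟨p, hP p.2⟩⟩ : Amb F) = ⟨1, c p⟩ * g := by
      intro p
      have h1 := congrArg Subtype.val (eq_mul_inv_iff_mul_eq.1 (hgx p))
      exact h1.symm
    have hright : ∀ p : P, g.right * lam S ⟨p, hP p.2⟩ * g.right⁻¹ = c p := fun p => by
      have h1 := congrArg SemidirectProduct.right (hcomm p)
      simp only [SemidirectProduct.mul_right] at h1
      rw [h1, mul_inv_cancel_right]
    have hfix : ∀ p, ∀ y ∈ g.left.toWord, edgeMove (c p) y.1 = y.1 := fun p => by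
      have h1 := congrArg SemidirectProduct.left (hcomm p)
      simp only [SemidirectProduct.mul_left, map_one, mul_one, one_mul] at h1
      have h2 : g.left.toWord.map (fun y => (edgeMove (c p) y.1, y.2)) = g.left.toWord := by
        rw [← toWord_map (edgeMove_injective _), ← edgeAut_apply, ← h1]
      intro y hy
      exact congrArg Prod.fst (List.map_inj_left.1 (h2.trans (List.map_id _).symm) y hy)
    have hstart : Good F c g.right :=
      ⟨P.subtype, subtype_mem F hP, fun p => hright p⟩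
    obtain ⟨ψ, hψ, hψc⟩ := good_of_path _ _ _ (path_of_mem hg) hfix g.right
      (by simp [base, MulAction.Quotient.smul_mk]) hstart 1 rfl
    have : φ = ψ := MonoidHom.ext fun p => by
      have h1 := hψc p
      rw [one_mul, inv_one, mul_one] at h1
      exact (congrArg Subtype.val (lam_injective h1)).symm
    rw [this]
    exact hψ

open scoped Classical in
/-- The length of the free part. -/
noncomputable def len (g : Amb F) : ℕ := g.left.toWord.length

theorem exists_letter {y : Edge F × Bool} {m : Vert S}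
    (hy : if y.2 then Inc y.1 (base S) m else Inc y.1 m (base S)) :
    ∃ x ∈ realGroup F, x.left = FreeGroup.mk [y] := by
  have hemb : ∀ s : S, (⟨1, lam S s⟩ : Amb F) ∈ realGroup F := fun s => (realEmb F s).2
  obtain ⟨⟨i, e⟩, b⟩ := y
  have helt : i.elt ∈ realGroup F := Subgroup.subset_closure (Or.inr ⟨i, rfl⟩)
  cases b <;> simp at hy <;> obtain ⟨d, he, hd, hd'⟩ := hy <;>
    change e = (d : Equiv.Perm S ⧸ i.stab) at he <;> subst he
  · obtain ⟨s, hs⟩ := QuotientGroup.eq.1 hd'
    refine ⟨⟨1, lam S s⟩ * i.elt⁻¹, mul_mem (hemb s) (inv_mem helt), ?_⟩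
    simp only [SemidirectProduct.mul_left, SemidirectProduct.inv_left, one_mul, Gen.elt]
    rw [← MulAut.mul_apply, ← map_mul, map_inv, edgeAut_apply, FreeGroup.map.of]
    show _ = (FreeGroup.of (⟨i, _⟩ : Edge F))⁻¹
    refine congrArg (fun z => (FreeGroup.of z)⁻¹) (Sigma.ext rfl (heq_of_eq ?_))
    show (lam S s * i.perm⁻¹) • ((1 : Equiv.Perm S) : Equiv.Perm S ⧸ i.stab) = _
    rw [show lam S s = _ from hs, MulAction.Quotient.smul_mk]
    congr 1
    simp
  · obtain ⟨s, hs⟩ := QuotientGroup.eq.1 hd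
    refine ⟨⟨1, lam S s⟩ * i.elt, mul_mem (hemb s) helt, ?_⟩
    simp only [SemidirectProduct.mul_left, one_mul, Gen.elt]
    rw [edgeAut_apply, FreeGroup.map.of]
    refine congrArg FreeGroup.of (Sigma.ext rfl (heq_of_eq ?_))
    show lam S s • ((1 : Equiv.Perm S) : Equiv.Perm S ⧸ i.stab) = _
    rw [show lam S s = _ from hs, MulAction.Quotient.smul_mk]
    congr 1

/-- A finite subgroup with a nontrivial free part moves to a conjugate of smaller total length. -/
theorem exists_shorter {K : Type u} [Group K] [Fintype K] (c : K →* Amb F)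
    (hc : ∀ k, c k ∈ realGroup F) {k₀ : K} (hk₀ : (c k₀).left ≠ 1) :
    ∃ x ∈ realGroup F, ∑ k, len (x⁻¹ * c k * x) < ∑ k, len (c k) := by
  classical
  obtain ⟨h, -, hmax⟩ := Finset.univ.exists_max_image (fun k => len (c k))
    ⟨k₀, Finset.mem_univ _⟩
  have hne : (c h).left.toWord ≠ [] := fun e => hk₀ (FreeGroup.toWord_eq_nil_iff.1
    (List.length_eq_zero_iff.1 (Nat.le_zero.1 ((hmax k₀ (Finset.mem_univ _)).trans
      (le_of_eq (by simp [len, e]))))))
  obtain ⟨y, T, hy⟩ := List.exists_cons_of_ne_nil hne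
  have hhead : ∀ k, ∀ z M, (c k).left.toWord = z :: M → z = y := by
    intro k z M hk
    symm
    refine head_eq_of_length (hy ▸ isReduced_toWord _) (hk ▸ isReduced_toWord _) ?_
    rw [← hy, ← hk]
    calc (FreeGroup.reduce (FreeGroup.invRev (c h).left.toWord ++ (c k).left.toWord)).length
        = ((c h).left⁻¹ * (c k).left).toWord.length := by
          rw [FreeGroup.toWord_mul, FreeGroup.toWord_inv]
      _ = len (c (h⁻¹ * k)) := by
          rw [len, map_mul, map_inv, SemidirectProduct.mul_left, SemidirectProduct.inv_left,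
            SemidirectProduct.inv_right, ← map_mul, edgeAut_apply,
            toWord_map (edgeMove_injective _), List.length_map]
      _ ≤ _ := hmax _ (Finset.mem_univ _)
  obtain ⟨m, hm, -⟩ := hy ▸ path_of_mem (hc h)
  obtain ⟨x, hx, hxy⟩ := exists_letter hm
  refine ⟨x, hx, ?_⟩
  obtain ⟨y₁, y₂⟩ := y
  have hmove : ∀ k, (c k).left.toWord = [] → edgeMove (c k).right y₁ = y₁ := by
    intro k hk
    have h1 : (c (k * h)).left.toWord = (edgeMove (c k).right y₁, y₂) ::
        T.map (fun z => (edgeMove (c k).right z.1, z.2)) := by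
      rw [map_mul, SemidirectProduct.mul_left, FreeGroup.toWord_eq_nil_iff.1 hk, one_mul,
        edgeAut_apply, toWord_map (edgeMove_injective _), hy]
      rfl
    exact congrArg Prod.fst (hhead _ _ _ h1)
  have hlast : ∀ k, (c k).left.toWord ≠ [] →
      ∃ M, (c k).left.toWord = M ++ [(edgeMove (c k).right y₁, !y₂)] := by
    intro k hk
    have hinv : (c k⁻¹).left.toWord =
        (FreeGroup.invRev (c k).left.toWord).map fun z => (edgeMove (c k).right⁻¹ z.1, z.2) := by
      rw [map_inv, SemidirectProduct.inv_left, edgeAut_apply,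
        toWord_map (edgeMove_injective _), FreeGroup.toWord_inv]
    obtain ⟨M, z, hz⟩ : ∃ M z, (c k).left.toWord = M ++ [z] :=
      ⟨_, _, (List.dropLast_append_getLast hk).symm⟩
    obtain ⟨z₁, z₂⟩ := z
    rw [hz, FreeGroup.invRev_append] at hinv
    have h1 := hhead k⁻¹ (edgeMove (c k).right⁻¹ z₁, !z₂)
      ((FreeGroup.invRev M).map fun z => (edgeMove (c k).right⁻¹ z.1, z.2))
      (hinv.trans (by simp [FreeGroup.invRev]))
    refine ⟨M, ?_⟩
    rw [hz]
    simp only [Prod.mk.injEq] at h1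
    rw [← h1.1, ← h1.2, ← edgeMove_mul, mul_inv_cancel, edgeMove_one, Bool.not_not]
  have hnew : ∀ k, len (x⁻¹ * c k * x) =
      ((FreeGroup.mk [(y₁, y₂)])⁻¹ * (c k).left *
        FreeGroup.mk [(edgeMove (c k).right y₁, y₂)]).toWord.length := by
    intro k
    rw [len, SemidirectProduct.mul_left, SemidirectProduct.mul_left, SemidirectProduct.mul_right,
      SemidirectProduct.inv_left, SemidirectProduct.inv_right, hxy, map_mul, MulAut.mul_apply,
      ← map_mul, ← map_mul, edgeAut_apply, toWord_map (edgeMove_injective _), List.length_map,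
      edgeAut_apply, FreeGroup.map.mk]
    rfl
  have hle : ∀ k, len (x⁻¹ * c k * x) ≤ len (c k) ∧
      ((c k).left.toWord ≠ [] → len (x⁻¹ * c k * x) < len (c k)) := by
    intro k
    rw [hnew]
    by_cases hk : (c k).left.toWord = []
    · refine ⟨?_, fun h => absurd hk h⟩
      rw [FreeGroup.toWord_eq_nil_iff.1 hk, hmove k hk, mul_one, inv_mul_cancel,
        FreeGroup.toWord_one]
      exact Nat.zero_le _
    · obtain ⟨M, hM⟩ := hlast k hk
      obtain ⟨z, N, hzN⟩ := List.exists_cons_of_ne_nil hk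
      have hz := hhead k z N hzN
      subst hz
      rw [hzN] at hM
      obtain ⟨M', rfl⟩ : ∃ M', M = (y₁, y₂) :: M' := by
        rcases M with - | ⟨z', M'⟩
        · simp at hM
        · simp only [List.cons_append, List.cons.injEq] at hM
          exact ⟨M', by rw [hM.1]⟩
      have hN : N = M' ++ [(edgeMove (c k).right y₁, !y₂)] := (List.cons.injEq _ _ _ _ ▸ hM).2
      have e : (FreeGroup.mk [(y₁, y₂)])⁻¹ * (c k).left *
          FreeGroup.mk [(edgeMove (c k).right y₁, y₂)] = FreeGroup.mk M' := by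
        have hw : (c k).left = FreeGroup.mk [(y₁, y₂)] * FreeGroup.mk M' *
            (FreeGroup.mk [(edgeMove (c k).right y₁, y₂)])⁻¹ := by
          rw [← FreeGroup.mk_toWord (x := (c k).left), hzN, hN, FreeGroup.inv_mk,
            FreeGroup.mul_mk, FreeGroup.mul_mk]
          rfl
        rw [hw]
        group
      have hlt : (FreeGroup.mk M').toWord.length < len (c k) := by
        rw [FreeGroup.toWord_mk, len, hzN, hN]
        have := (FreeGroup.reduce.red (L := M')).length_le
        simp only [List.length_cons, List.length_append]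
        omega
      rw [e]
      exact ⟨hlt.le, fun _ => hlt⟩
  exact Finset.sum_lt_sum (fun k _ => (hle k).1) ⟨h, Finset.mem_univ _, (hle h).2 hne⟩

/-- Finite subgroups are conjugate into the image of `S`. -/
theorem exists_conj_into (H : Subgroup (realGroup F)) (hH : Finite H) :
    ∃ g : realGroup F, ∀ h ∈ H, g * h * g⁻¹ ∈ (realEmb F).range := by
  classical
  have := Fintype.ofFinite H
  let m : realGroup F → ℕ := fun g => ∑ h : H, len ((g * h * g⁻¹ : realGroup F) : Amb F)
  obtain ⟨g, hg⟩ := exists_minimal_measure m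
  refine ⟨g, fun h hh => ?_⟩
  let c : H →* Amb F :=
    (realGroup F).subtype.comp ((MulAut.conj g).toMonoidHom.comp H.subtype)
  have hleft : ∀ k, (c k).left = 1 := by
    intro k
    by_contra hk
    obtain ⟨x, hx, hlt⟩ := exists_shorter c (fun k => (g * k * g⁻¹ : realGroup F).2) hk
    refine absurd (hg ((⟨x, hx⟩ : realGroup F)⁻¹ * g)) (not_le.2 (lt_of_le_of_lt (le_of_eq ?_) hlt))
    refine Finset.sum_congr rfl fun k _ => congrArg len ?_
    simp [c, mul_assoc]
  obtain ⟨s, hs⟩ := right_mem_of_left_one (g * h * g⁻¹ : realGroup F).2 (hleft ⟨h, hh⟩)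
  exact ⟨s, Subtype.ext hs⟩
where
  /-- A measure takes a smallest value. -/
  exists_minimal_measure {α : Type u} [Nonempty α] (m : α → ℕ) : ∃ g, ∀ g', m g ≤ m g' :=
    ⟨Function.argmin m, fun g' => Function.argmin_le m g'⟩

/-- The group is free by finite. -/
theorem exists_free :
    ∃ N : Subgroup (realGroup F), N.Normal ∧ IsFreeGroup N ∧
      N.index ∣ (Nat.card S).factorial := by
  let π : realGroup F →* Equiv.Perm S := SemidirectProduct.rightHom.comp (realGroup F).subtype
  refine ⟨π.ker, inferInstance, ?_, ?_⟩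
  · let f : π.ker →* FreeGroup (Edge F) :=
      { toFun := fun g => ((g : realGroup F) : Amb F).left
        map_one' := rfl
        map_mul' := fun a b => by
          have ha : ((a : realGroup F) : Amb F).right = 1 := a.2
          simp [Subgroup.coe_mul, ha] }
    have hf : Function.Injective f := fun a b h =>
      Subtype.ext (Subtype.ext (SemidirectProduct.ext h (a.2.trans b.2.symm)))
    exact IsFreeGroup.ofMulEquiv (MonoidHom.ofInjective hf).symm
  · rw [Subgroup.index_ker, ← Nat.card_perm]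
    exact Subgroup.card_subgroup_dvd_card _

end CfsgLib.VirtuallyFree
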